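import Mathlib
import Cfsg.Agent.Lib.Blk.One
import Cfsg.Agent.Lib.Blk.Two

/-! The dual Cartan form of a 2-block of defect two with one or three Brauer characters. -/

set_option autoImplicit false
set_option linter.unusedSectionVars false

namespace CfsgLib.KKL

open Cfsg CfsgLib.Char CfsgLib.Block CfsgLib.Blk
open scoped ComplexConjugate

/-- a rank one matrix of signs -/
theorem kf_rk {ι : Type*} {s : Finset ι} {N : ι → ι → ℤ} (h4 : s.card = 4)
    (h1 : ∀ i ∈ s, ∀ j ∈ s, N i j ^ 2 = 1) (sq : ∀ i ∈ s, ∀ j ∈ s, ∑ k ∈ s, N i k * N k j = 4 * N i j)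
    {i j k : ι} (hi : i ∈ s) (hj : j ∈ s) (hk : k ∈ s) : N k j = N i k * N i j := by
  have h2 : ∑ k ∈ s, (N i k * N k j - N i j) ^ 2 = 0 := by
    have : ∀ k ∈ s, (N i k * N k j - N i j) ^ 2 = 2 - 2 * N i j * (N i k * N k j) := fun k hk => by
      linear_combination N k j ^ 2 * h1 i hi k hk + h1 k hk j hj + h1 i hi j hj
    rw [Finset.sum_congr rfl this, Finset.sum_sub_distrib, ← Finset.mul_sum, sq i hi j hj, Finset.sum_const, h4]
    simp only [nsmul_eq_mul]
    linear_combination (-8) * h1 i hi j hj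
  have h3 := pow_eq_zero_iff two_ne_zero |>.1
    ((Finset.sum_eq_zero_iff_of_nonneg fun _ _ => sq_nonneg _).1 h2 k hk)
  linear_combination N i k * h3 - N k j * h1 i hi k hk

theorem kf_int {ι : Type*} [DecidableEq ι] (s : Finset ι) (A : ι → ι → ℤ) (l : ℤ) (m : ι → ℤ)
    (sym : ∀ i j, A i j = A j i) (sq : ∀ i ∈ s, ∀ j ∈ s, ∑ k ∈ s, A i k * A k j = 4 * A i j)
    (od : ∀ i ∈ s, ∀ j ∈ s, Odd (A i j)) (tr : ∑ i ∈ s, A i i = 4 * l) (hl : l = 1 ∨ l = 3)
    (hm : ∀ i ∈ s, ∑ j ∈ s, A i j * m j = 4 * m i)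
    (hx : ∀ x : ι → ℤ, (∀ i ∈ s, ∑ j ∈ s, A i j * x j = 4 * x i) → (4 : ℤ) ∣ ∑ i ∈ s, x i * m i) :
    ∃ n : ℤ, ∑ i ∈ s, m i ^ 2 = 4 * n ∧ (Odd n → (8 : ℤ) ∣ n - l) := by
  have e1 : ∀ i ∈ s, ∑ k ∈ s.erase i, A i k ^ 2 = A i i * (4 - A i i) := fun i hi => by
    have := sq i hi i hi
    rw [← Finset.add_sum_erase _ _ hi, Finset.sum_congr rfl fun k _ => by rw [sym k i, ← _root_.sq]] at this
    linear_combination this
  have e2 : ∀ i ∈ s, A i i = 1 ∨ A i i = 3 := fun i hi => by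
    have h1 : 0 ≤ A i i * (4 - A i i) := e1 i hi ▸ Finset.sum_nonneg fun _ _ => sq_nonneg _
    obtain ⟨r, hr⟩ := od i hi i hi
    have h2 : 0 ≤ A i i := by nlinarith
    have h3 : A i i ≤ 4 := by nlinarith
    omega
  have e3 : ∀ i ∈ s, ∑ k ∈ s.erase i, A i k ^ 2 = 3 := fun i hi => by
    rw [e1 i hi]; rcases e2 i hi with e | e <;> rw [e] <;> rfl
  have e4 : ∀ i ∈ s, ∀ j ∈ s, j ≠ i → A i j ^ 2 = 1 := fun i hi j hj h => by
    have h1 := Finset.single_le_sum (f := fun k => A i k ^ 2) (fun _ _ => sq_nonneg _)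
      (Finset.mem_erase.2 ⟨h, hj⟩)
    rw [e3 i hi] at h1
    obtain ⟨r, hr⟩ := od i hi j hj
    have h2 : -2 < A i j := by nlinarith
    have h3 : A i j < 2 := by nlinarith
    have : A i j = 1 ∨ A i j = -1 := by omega
    rcases this with e | e <;> rw [e] <;> rfl
  obtain ⟨i, hi⟩ : s.Nonempty := Finset.nonempty_iff_ne_empty.2 fun e => by
    rw [e, Finset.sum_empty] at tr; omega
  have h4 : s.card = 4 := by
    have := e3 i hi
    rw [Finset.sum_congr rfl fun k hk => e4 i hi k (Finset.mem_of_mem_erase hk) (Finset.ne_of_mem_erase hk),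
      Finset.sum_const, Finset.card_erase_of_mem hi, nsmul_eq_mul, mul_one] at this
    have := Finset.card_pos.2 ⟨i, hi⟩
    omega
  have e5 : ∀ j ∈ s, A j j = l := fun j hj => by
    have h1 : ∑ j ∈ s, (A j j - l) * (2 - l) = 0 := by
      rw [← Finset.sum_mul, Finset.sum_sub_distrib, tr, Finset.sum_const, h4]; simp
    have := (Finset.sum_eq_zero_iff_of_nonneg fun k hk => by
      rcases e2 k hk with e | e <;> rcases hl with e' | e' <;> rw [e, e'] <;> norm_num).1 h1 j hj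
    rcases hl with e' | e' <;> rw [e'] at this ⊢ <;> omega
  rcases hl with rfl | rfl
  · have h1 : ∀ i ∈ s, ∀ j ∈ s, A i j ^ 2 = 1 := fun i hi j hj => by
      by_cases h : j = i
      · rw [h, e5 i hi]; rfl
      · exact e4 i hi j hj h
    have h2 : ∀ j ∈ s, m j = A i j * m i := fun j hj => by
      have h3 := hm j hj
      rw [Finset.sum_congr rfl fun k hk => by rw [kf_rk h4 h1 sq hi hk hj, mul_assoc], ← Finset.mul_sum,
        hm i hi] at h3
      linarith
    refine ⟨m i ^ 2, ?_, fun h => ?_⟩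
    · rw [Finset.sum_congr rfl fun k hk => by rw [h2 k hk, mul_pow, h1 i hi k hk, one_mul], Finset.sum_const, h4]
      simp
    · exact Int.eight_dvd_sq_sub_one_of_odd (Int.odd_pow.1 h |>.resolve_right two_ne_zero)
  · set N : ι → ι → ℤ := fun a b => (if a = b then 4 else 0) - A a b with hN
    have h1 : ∀ i ∈ s, ∀ j ∈ s, N i j ^ 2 = 1 := fun i hi j hj => by
      by_cases h : j = i
      · simp only [hN, h, if_true, e5 i hi]; rfl
      · simp only [hN, if_neg (Ne.symm h), zero_sub, neg_sq, e4 i hi j hj h]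
    have hNx : ∀ x : ι → ℤ, ∀ a ∈ s, ∑ b ∈ s, N a b * x b = 4 * x a - ∑ b ∈ s, A a b * x b := fun x a ha => by
      simp only [hN, sub_mul, Finset.sum_sub_distrib, ite_mul, zero_mul, Finset.sum_ite_eq, if_pos ha]
    have sqN : ∀ a ∈ s, ∀ b ∈ s, ∑ k ∈ s, N a k * N k b = 4 * N a b := fun a ha b hb => by
      rw [hNx (fun k => N k b) a ha]
      simp only [hN, mul_sub, Finset.sum_sub_distrib, mul_ite, mul_zero, Finset.sum_ite_eq', if_pos hb,
        sq a ha b hb]
      ring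
    have Nii : N i i = 1 := by simp only [hN, if_true, e5 i hi]; rfl
    have h2 : ∑ b ∈ s, N i b * m b = 0 := by rw [hNx m i hi, hm i hi, sub_self]
    have h3 : ∀ j, ∃ n : ℤ, j ∈ s → N i j * m j = m i + 4 * n := fun j => by
      by_cases hj : j ∈ s
      swap
      · exact ⟨0, fun h => absurd h hj⟩
      obtain ⟨n, hn⟩ := hx (fun k => (if k = j then N i j else 0) - if k = i then 1 else 0) fun a ha => by
        have := hNx (fun k => (if k = j then N i j else 0) - if k = i then 1 else 0) a ha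
        refine (sub_eq_zero.1 (this.symm.trans ?_)).symm
        simp only [mul_sub, Finset.sum_sub_distrib, mul_ite, mul_zero, Finset.sum_ite_eq', if_pos hj, if_pos hi]
        rw [kf_rk h4 h1 sqN hi hj ha, kf_rk h4 h1 sqN hi hi ha, Nii]
        linear_combination N i a * h1 i hi j hj
      simp only [sub_mul, Finset.sum_sub_distrib, ite_mul, zero_mul, Finset.sum_ite_eq', if_pos hj,
        if_pos hi] at hn
      exact ⟨n, fun _ => by linarith⟩
    choose n hn using h3
    have h5 : m i = -∑ b ∈ s, n b := by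
      rw [Finset.sum_congr rfl hn, Finset.sum_add_distrib, Finset.sum_const, h4, ← Finset.mul_sum] at h2
      simp only [nsmul_eq_mul] at h2
      push_cast at h2
      linarith
    refine ⟨4 * ∑ b ∈ s, n b ^ 2 - m i ^ 2, ?_, fun h => ?_⟩
    · have : ∀ k ∈ s, m k ^ 2 = m i ^ 2 + 8 * m i * n k + 16 * n k ^ 2 := fun k hk => by
        have := congrArg (· ^ 2) (hn k hk)
        simp only [mul_pow, h1 i hi k hk] at this
        linear_combination this
      rw [Finset.sum_congr rfl this, Finset.sum_add_distrib, Finset.sum_add_distrib, Finset.sum_const, h4,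
        ← Finset.mul_sum, ← Finset.mul_sum]
      simp only [nsmul_eq_mul]
      push_cast
      linear_combination (8 * m i) * h5
    · have h6 : (2 : ℤ) ∣ ∑ b ∈ s, n b ^ 2 - ∑ b ∈ s, n b := by
        rw [← Finset.sum_sub_distrib]
        exact Finset.dvd_sum fun b _ => by
          rw [show n b ^ 2 - n b = n b * (n b - 1) by ring]; exact (Int.even_mul_pred_self _).two_dvd
      have h7 : Odd (m i) := by
        by_contra h8
        obtain ⟨r, hr⟩ := Int.not_odd_iff_even.1 h8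
        obtain ⟨t, ht⟩ := h
        rw [hr, show (r + r) ^ 2 = 4 * (r * r) by ring] at ht
        omega
      have h8 := Int.eight_dvd_sq_sub_one_of_odd h7
      obtain ⟨r, hr⟩ := h7
      omega

theorem kf {M : Ideal AlgInt} (hM : IsPModular 2 M) {Q : Type*} [Group Q] [Fintype Q] {b : Set (IrrCharacter Q)}
    (hb : IsPBlock M b) (hd : blockDefect 2 b = 2) (hl : blockRank 2 b = 1 ∨ blockRank 2 b = 3) {g : Q → ℂ}
    (hg : g ∈ regSpan 2 b)
    (hi : ∀ Φ, IsGeneralizedCharacter Q Φ → pRegularPart 2 Φ = Φ → ∃ n : ℤ, classInner g Φ = n) :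
    ∃ n : ℤ, 4 * classInner g g = n ∧ (Odd n → (8 : ℤ) ∣ n - blockRank 2 b) := by
  classical
  have : Fact (Nat.Prime 2) := ⟨Nat.prime_two⟩
  have gc : ∀ χ : IrrCharacter Q, IsGeneralizedCharacter Q (χ : Q → ℂ) := fun χ =>
    isGenChar_of_isCharacter (irr_isCharacter χ)
  have ex : ∀ χ ∈ b, (4 : ℂ) • pRegularPart 2 (χ : Q → ℂ) = ∑ ψ ∈ bf b, (aa 2 b χ ψ : ℂ) • (ψ : Q → ℂ) :=
    fun χ hχ => by rw [← pow_smul_reg_eq_sum_aa hM hb hχ, hd]; norm_num
  have in1 : ∀ x : IrrCharacter Q → ℤ, classInner g (∑ ψ ∈ bf b, (x ψ : ℂ) • (ψ : Q → ℂ)) =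
      ∑ ψ ∈ bf b, (x ψ : ℂ) * classInner g ψ := fun x => by
    rw [classInner_sum_right]
    exact Finset.sum_congr rfl fun ψ _ => by rw [classInner_smul_right, map_intCast]
  have in2 : ∀ χ ∈ b, ∑ ψ ∈ bf b, (aa 2 b χ ψ : ℂ) * classInner g ψ = 4 * classInner g χ := fun χ hχ => by
    rw [← in1, ← ex χ hχ, classInner_smul_right, ← mm_eq_right, mm, reg_of_mem_regSpan hM hb hg]
    congr 1
    exact map_ofNat _ 4
  have h1 : ∀ χ : IrrCharacter Q, ∃ n : ℤ, χ ∈ b → 4 * classInner g χ = n := fun χ => by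
    by_cases hχ : χ ∈ b
    · obtain ⟨n, hn⟩ := hi _ (isGenChar_sum (bf b) fun ψ _ => isGenChar_intCast_smul (aa 2 b χ ψ) (gc ψ)) (by
        rw [← ex χ hχ]
        exact reg_of_mem_regSpan hM hb (Submodule.smul_mem _ _ (reg_mem_regSpan hχ)))
      exact ⟨n, fun _ => by rw [← hn, in1, in2 χ hχ]⟩
    · exact ⟨0, fun h => absurd h hχ⟩
  choose m hm using h1
  have h0 := fun χ hχ => height_eq_zero_of_defect_le hM hb hd.le (χ := χ) hχ
  obtain ⟨n, h2, h3⟩ := kf_int (bf b) (fun χ ψ => aa 2 b χ ψ) (blockRank 2 b) m (fun χ ψ => aa_comm_irr b χ ψ)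
    (fun χ hχ ψ _ => by rw [sum_aa_mul_aa hM hb (mem_bf.1 hχ) (gc ψ), hd]; norm_num)
    (fun χ hχ ψ hψ => Int.not_even_iff_odd.1 fun e => not_dvd_aa_of_height_zero hM hb (mem_bf.1 hψ)
      (mem_bf.1 hχ) (h0 _ (mem_bf.1 hψ)) (h0 _ (mem_bf.1 hχ)) e.two_dvd)
    (by rw [sum_aa_self hM hb, hd]; norm_num) (by omega)
    (fun χ hχ => by
      apply Int.cast_injective (α := ℂ)
      push_cast
      rw [← hm χ (mem_bf.1 hχ), ← in2 χ (mem_bf.1 hχ), Finset.mul_sum]
      exact Finset.sum_congr rfl fun ψ hψ => by rw [← hm ψ (mem_bf.1 hψ)]; ring)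
    fun x hx => by
      obtain ⟨n, hn⟩ := hi _ (isGenChar_sum (bf b) fun ψ _ => isGenChar_intCast_smul (x ψ) (gc ψ)) (by
        refine smul_right_injective _ (by norm_num : (4 : ℂ) ≠ 0) ?_
        simp only [← regLin_apply, map_sum, map_smul, Finset.smul_sum]
        rw [Finset.sum_congr rfl fun χ hχ => by
          rw [smul_comm, regLin_apply, ex χ (mem_bf.1 hχ), Finset.smul_sum], Finset.sum_comm]
        refine Finset.sum_congr rfl fun ψ hψ => ?_
        have := congrArg (Int.cast : ℤ → ℂ) (hx ψ hψ)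
        push_cast at this
        rw [smul_smul, ← this, Finset.sum_smul]
        exact Finset.sum_congr rfl fun χ _ => by rw [smul_smul, aa_comm_irr b ψ χ, mul_comm])
      refine ⟨n, Int.cast_injective (α := ℂ) ?_⟩
      push_cast
      rw [← hn, in1, Finset.mul_sum]
      exact Finset.sum_congr rfl fun ψ hψ => by rw [← hm ψ (mem_bf.1 hψ)]; ring
  refine ⟨n, ?_, h3⟩
  have h4 := congrArg (Int.cast : ℤ → ℂ) h2
  push_cast at h4
  have h5 := classInner_blockPart_left b g g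
  rw [blockPart_of_mem_regSpan hM hb hg] at h5
  refine mul_left_cancel₀ (by norm_num : (4 : ℂ) ≠ 0) ?_
  rw [← h4, h5, Finset.mul_sum, Finset.mul_sum]
  refine Finset.sum_congr rfl fun ψ hψ => ?_
  have h6 : classInner g ψ = m ψ / 4 := by rw [← hm ψ (mem_bf.1 hψ)]; ring
  rw [h6, map_div₀, map_intCast, map_ofNat]
  ring

end CfsgLib.KKL
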